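import Mathlib
import Cfsg.Agent.Local.FrobComplement

/-! Lifting fixed-point-free actions to characteristic zero. -/

set_option autoImplicit false

namespace Cfsg.Agent.Local

open Subgroup MulAction
open scoped Pointwise

variable {G : Type*} [Group G]

theorem exists_hom_zmod_of_isPGroup {V : Type*} [CommGroup V] [Finite V] [Nontrivial V] {p : ℕ}
    [hp : Fact p.Prime] (hV : IsPGroup p V) :
    ∃ (φ : V →* Multiplicative (ZMod p)) (v : V), φ v ≠ 1 := by
  obtain ⟨k, hk⟩ := IsPGroup.iff_card.1 hV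
  obtain ⟨k, rfl⟩ : ∃ l, k = l + 1 := Nat.exists_eq_add_one_of_ne_zero (by
    rintro rfl
    exact (Finite.one_lt_card (α := V)).ne' hk)
  obtain ⟨K, hK⟩ := Sylow.exists_subgroup_card_pow_prime p (G := V) (n := k)
    (hk ▸ pow_dvd_pow p (Nat.le_succ k))
  have h1 : Nat.card (V ⧸ K) = p := by
    have := K.card_eq_card_quotient_mul_card_subgroup
    rw [hk, hK, pow_succ'] at this
    exact (Nat.eq_of_mul_eq_mul_right (Nat.pow_pos hp.out.pos) this).symm
  let e : (V ⧸ K) ≃* Multiplicative (ZMod p) := mulEquivOfPrimeCardEq h1 (by simp)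
  obtain ⟨v, hv⟩ := (e.surjective.comp (QuotientGroup.mk'_surjective K))
    (Multiplicative.ofAdd 1)
  refine ⟨e.toMonoidHom.comp (QuotientGroup.mk' K), v, fun h => ?_⟩
  have : (Multiplicative.ofAdd 1 : Multiplicative (ZMod p)) = 1 := hv.symm.trans h
  exact one_ne_zero (α := ZMod p) this

theorem exists_classFun_zmod [Fintype G] {V : Type*} [CommGroup V] [Finite V] [Nontrivial V]
    [MulDistribMulAction G V] {p : ℕ} [hp : Fact p.Prime] (hV : IsPGroup p V)
    (h : ∀ g : G, g ≠ 1 → ∀ v : V, g • v = v → v = 1) :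
    ∃ c : G → ZMod p, (Fintype.card G : ZMod p) * c 1 ≠ 0 ∧ (∀ x y, c (x * y) = c (y * x)) ∧
      ∀ u : G, u ≠ 1 → ∀ g, ∑ i ∈ Finset.range (orderOf u), c (u ^ i * g) = 0 := by
  obtain ⟨φ, v, hv⟩ := exists_hom_zmod_of_isPGroup hV
  have hG : (Fintype.card G : ZMod p) ≠ 0 := by
    rw [Ne, ZMod.natCast_eq_zero_iff, ← Nat.card_eq_fintype_card]
    intro hd
    obtain ⟨k, hk0, hk⟩ := hV.nontrivial_iff_card.1 inferInstance
    exact hp.out.one_lt.ne' (Nat.eq_one_of_dvd_coprimes (coprime_card_of_fpf_action h) hd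
      (hk ▸ dvd_pow_self p hk0.ne'))
  refine ⟨fun g => ∑ y, (φ ((y * g * y⁻¹) • v)).toAdd, mul_ne_zero hG ?_, fun x y => ?_,
    fun u hu g => ?_⟩
  · simp only [mul_one, mul_inv_cancel, one_smul, Finset.sum_const, Finset.card_univ, nsmul_eq_mul]
    exact mul_ne_zero hG hv
  · beta_reduce
    rw [← Equiv.sum_comp (Equiv.mulRight y)]
    refine Finset.sum_congr rfl fun z _ => ?_
    simp only [Equiv.coe_mulRight]
    congr 3
    group
  · rw [Finset.sum_comm]
    refine Finset.sum_eq_zero fun y _ => ?_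
    rw [← toAdd_prod, ← map_prod]
    have h1 : ∏ i ∈ Finset.range (orderOf u), (y * (u ^ i * g) * y⁻¹) • v =
        ∏ i ∈ Finset.range (orderOf u), (y * u * y⁻¹) ^ i • (y * g * y⁻¹) • v :=
      Finset.prod_congr rfl fun i _ => by rw [← mul_smul, conj_pow]; congr 1; group
    rw [h1, h (y * u * y⁻¹) (by simpa using hu) _ (smul_prod_range_eq
      (by rw [conj_pow, pow_orderOf_eq_one]; group) _), map_one, toAdd_one]

theorem exists_int_fun_of_classFun [Fintype G] {p : ℕ} [hp : Fact p.Prime] (c : G → ZMod p)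
    (h1 : (Fintype.card G : ZMod p) * c 1 ≠ 0) (h2 : ∀ x y, c (x * y) = c (y * x))
    (h3 : ∀ u : G, u ≠ 1 → ∀ g, ∑ i ∈ Finset.range (orderOf u), c (u ^ i * g) = 0) :
    ∃ f : G → ℤ, f ≠ 0 ∧
      ∀ u : G, u ≠ 1 → ∀ g, ∑ i ∈ Finset.range (orderOf u), f (u ^ i * g) = 0 := by
  classical
  by_contra hcon
  let E : Matrix G G ℤ := Matrix.of fun g h => ((c (g * h⁻¹)).val : ℤ)
  let Q : G → Matrix G G ℤ := fun x => Matrix.of fun g h => if x * g = h then 1 else 0
  have hQl : ∀ x (M : Matrix G G ℤ) g k, (Q x * M) g k = M (x * g) k := by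
    intro x M g k
    simp [Q, Matrix.mul_apply]
  have hQr : ∀ x (M : Matrix G G ℤ) g k, (M * Q x) g k = M g (x⁻¹ * k) := by
    intro x M g k
    simp [Q, Matrix.mul_apply, ← eq_inv_mul_iff_mul_eq]
  let N : G → Matrix G G ℤ := fun u => ∑ i ∈ Finset.range (orderOf u), Q (u ^ i)
  have hN : ∀ u (M : Matrix G G ℤ) g k,
      (N u * M) g k = ∑ i ∈ Finset.range (orderOf u), M (u ^ i * g) k := by
    intro u M g k
    simp only [N, Finset.sum_mul, Matrix.sum_apply, hQl]
  have hNE : ∀ u, N u * E = E * N u := by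
    intro u
    simp only [N, Finset.sum_mul, Finset.mul_sum]
    refine Finset.sum_congr rfl fun i _ => ?_
    ext g k
    rw [hQl, hQr]
    simp only [E, Matrix.of_apply]
    rw [mul_assoc, h2, mul_inv_rev, inv_inv, mul_assoc]
  have hNN : ∀ u (M : Matrix G G ℤ) g k,
      (N u * (N u * M)) g k = orderOf u * (N u * M) g k := by
    intro u M g k
    have : ∀ i, (N u * M) (u ^ i * g) k = (N u * M) g k := by
      intro i
      induction i with
      | zero => simp
      | succ i ih =>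
        rw [← ih, hN, hN]
        have h := Finset.sum_range_succ (fun j => M (u ^ j * (u ^ i * g)) k) (orderOf u)
        rw [Finset.sum_range_succ', pow_orderOf_eq_one, pow_zero] at h
        rw [← add_right_cancel h]
        exact Finset.sum_congr rfl fun j _ => by congr 1; group
    rw [hN, Finset.sum_congr rfl fun i _ => this i, Finset.sum_const, Finset.card_range,
      nsmul_eq_mul]
  have hp1 : ∀ u, u ≠ 1 → ∀ g k, (p : ℤ) ∣ (N u * E) g k := by
    intro u hu g k
    rw [← ZMod.intCast_zmod_eq_zero_iff_dvd, hN, ← h3 u hu (g * k⁻¹)]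
    simp [E, mul_assoc]
  have hpj : ∀ u, u ≠ 1 → ∀ j g k, (p : ℤ) ^ j ∣ (N u * E ^ j) g k := by
    intro u hu j
    have hcop : IsCoprime (p : ℤ) (orderOf u) := by
      rw [Nat.isCoprime_iff_coprime, hp.out.coprime_iff_not_dvd]
      intro hd
      apply h1
      rw [(ZMod.natCast_eq_zero_iff _ _).2 (hd.trans orderOf_dvd_card), zero_mul]
    induction j with
    | zero => simp
    | succ j ih =>
      intro g k
      refine (hcop.pow_left (m := j + 1)).dvd_of_dvd_mul_left ?_
      rw [← hNN, pow_succ' E, ← mul_assoc (N u) E, hNE, mul_assoc E, ← mul_assoc, Matrix.mul_apply,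
        pow_succ']
      exact Finset.dvd_sum fun l _ => mul_dvd_mul (hp1 u hu g l) (ih l k)
  let Φ : (G → ℤ) →ₗ[ℤ] ({u : G // u ≠ 1} → G → ℤ) :=
    { toFun := fun f u g => ∑ i ∈ Finset.range (orderOf u.1), f (u.1 ^ i * g)
      map_add' := fun f f' => by ext u g; simp [Finset.sum_add_distrib]
      map_smul' := fun a f => by ext u g; simp [Finset.mul_sum] }
  have hΦ : Function.Injective Φ := by
    rw [injective_iff_map_eq_zero]
    intro f hf
    by_contra hf0
    exact hcon ⟨f, hf0, fun u hu g => congrFun (congrFun hf ⟨u, hu⟩) g⟩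
  obtain ⟨m, hm, hm0⟩ := Submodule.annihilator_top_inter_nonZeroDivisors
    (Submodule.torsion_isTorsion (R := ℤ) (M := ({u : G // u ≠ 1} → G → ℤ) ⧸ LinearMap.range Φ))
  have hm0' : m ≠ 0 := nonZeroDivisors.ne_zero hm0
  have hp0 : (p : ℤ) ≠ 0 := by exact_mod_cast hp.out.ne_zero
  have key : ∀ j g k, (p : ℤ) ^ j ∣ m * (E ^ j) g k := by
    intro j g k
    choose y hy using fun (u : {u : G // u ≠ 1}) g => hpj u.1 u.2 j g k
    have hy' : Φ (fun g => (E ^ j) g k) = (p : ℤ) ^ j • y := by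
      ext u g
      exact (hN u.1 (E ^ j) g k).symm.trans (hy u g)
    have ht : (Submodule.Quotient.mk y : _ ⧸ LinearMap.range Φ) ∈ Submodule.torsion ℤ _ :=
      ⟨⟨(p : ℤ) ^ j, mem_nonZeroDivisors_of_ne_zero (pow_ne_zero j hp0)⟩, by
        change ((p : ℤ) ^ j) • (Submodule.Quotient.mk y : _ ⧸ LinearMap.range Φ) = 0
        rw [← Submodule.Quotient.mk_smul, ← hy', Submodule.Quotient.mk_eq_zero]
        exact ⟨_, rfl⟩⟩
    have h4 := congrArg Subtype.val (Submodule.mem_annihilator.1 hm ⟨_, ht⟩ trivial)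
    change m • (Submodule.Quotient.mk y : _ ⧸ LinearMap.range Φ) = 0 at h4
    rw [← Submodule.Quotient.mk_smul, Submodule.Quotient.mk_eq_zero] at h4
    obtain ⟨w, hw⟩ := h4
    have h5 : m • (fun g => (E ^ j) g k) = (p : ℤ) ^ j • w :=
      hΦ (by rw [map_smul, map_smul, hy', hw, smul_comm])
    exact ⟨w g, congrFun h5 g⟩
  obtain ⟨j, hj⟩ : ∃ j, ¬ (p : ℤ) ^ j ∣ m := by
    refine ⟨m.natAbs, fun h => ?_⟩
    have := Nat.le_of_dvd (Int.natAbs_pos.2 hm0') (Int.natCast_dvd.1 (by exact_mod_cast h))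
    exact absurd this (not_le.2 (Nat.lt_pow_self hp.out.one_lt))
  have hnil : IsNilpotent ((Int.castRingHom (ZMod p)).mapMatrix E) := by
    refine ⟨j, ?_⟩
    rw [← map_pow]
    ext g k
    simp only [RingHom.mapMatrix_apply, Matrix.map_apply, eq_intCast, Matrix.zero_apply]
    rw [ZMod.intCast_zmod_eq_zero_iff_dvd]
    by_contra hd
    have hpi : Prime (p : ℤ) := Nat.prime_iff_prime_int.1 hp.out
    exact hj (((hpi.irreducible.coprime_iff_not_dvd.2 hd).pow_left (m := j)).dvd_of_dvd_mul_right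
      (key j g k))
  have := (Matrix.isNilpotent_trace_of_isNilpotent hnil).eq_zero
  apply h1
  rw [← this]
  simp [Matrix.trace, E]

/-- functions all of whose sums over cosets of nontrivial cyclic subgroups vanish -/
def cuspSub (k G : Type*) [Field k] [Group G] : Submodule k (G → k) where
  carrier := {f | ∀ u : G, u ≠ 1 → ∀ g, ∑ i ∈ Finset.range (orderOf u), f (u ^ i * g) = 0}
  zero_mem' := fun u _ g => by simp
  add_mem' := fun {a b} ha hb u hu g => by simp [Finset.sum_add_distrib, ha u hu g, hb u hu g]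
  smul_mem' := fun c a ha u hu g => by simp [← Finset.mul_sum, ha u hu g]

/-- the representation on `cuspSub` by right translations -/
def cuspRep (k G : Type*) [Field k] [Group G] : G →* Module.End k (cuspSub k G) where
  toFun x :=
    { toFun := fun f => ⟨fun g => f.1 (g * x), fun u hu g => by
        simpa [mul_assoc] using f.2 u hu (g * x)⟩
      map_add' := fun _ _ => rfl
      map_smul' := fun _ _ => rfl }
  map_one' := by ext f g; simp
  map_mul' x y := by ext f g; simp [mul_assoc]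

theorem sum_cuspRep_eq_zero (k : Type*) [Field k] {u : G} (hu : u ≠ 1) :
    ∑ i ∈ Finset.range (orderOf u), cuspRep k G u ^ i = 0 := by
  ext f g
  have := f.2 (g * u * g⁻¹) (by simpa using hu) g
  rw [orderOf_conj'] at this
  simp only [← map_pow, LinearMap.coe_sum, Finset.sum_apply, AddSubmonoidClass.coe_finsetSum,
    LinearMap.zero_apply, ZeroMemClass.coe_zero, Pi.zero_apply]
  rw [← this]
  refine Finset.sum_congr rfl fun i _ => ?_
  change f.1 (g * u ^ i) = _
  rw [conj_pow, inv_mul_cancel_right]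

theorem nontrivial_cuspSub [Finite G] (k : Type*) [Field k] [CharZero k]
    (hFC : ∃ (L : Type) (_ : Group L) (_ : Finite L) (H : Subgroup L),
      Cfsg.IsFrobeniusComplement H ∧ Nonempty (G ≃* H)) : Nontrivial (cuspSub k G) := by
  obtain ⟨V, _, _, _, _, p, hp, hV, h⟩ := exists_fpf_action_of_isFrobeniusComplement hFC
  have := Fact.mk hp
  have := Fintype.ofFinite G
  obtain ⟨c, h1, h2, h3⟩ := exists_classFun_zmod hV h
  obtain ⟨f, hf, hf'⟩ := exists_int_fun_of_classFun c h1 h2 h3
  refine ⟨⟨⟨fun g => (f g : k), fun u hu g => ?_⟩, 0, fun h => hf ?_⟩⟩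
  · beta_reduce
    exact_mod_cast hf' u hu g
  · ext g
    have : (f g : k) = 0 := congrFun (congrArg Subtype.val h) g
    exact_mod_cast this

end Cfsg.Agent.Local
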