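import Mathlib
import Cfsg.Agent.Local.FpfLift

/-! Products of two elements of order three in a Frobenius complement. -/

set_option autoImplicit false

namespace Cfsg.Agent.Local

open Polynomial

/-- Chebyshev-type recursion -/
def cheb {R : Type*} [Ring R] (t : R) : ℕ → R
  | 0 => 2
  | 1 => t
  | (n + 2) => t * cheb t (n + 1) - cheb t n

theorem cheb_add {R : Type*} [Ring R] {u v : R} (h1 : u * v = 1) (h2 : v * u = 1) :
    ∀ n, cheb (u + v) n = u ^ n + v ^ n
  | 0 => by simp [cheb, one_add_one_eq_two]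
  | 1 => by simp [cheb]
  | (n + 2) => by
    rw [cheb, cheb_add h1 h2 (n + 1), cheb_add h1 h2 n, add_mul, mul_add, mul_add,
      pow_succ' v n, ← mul_assoc u v, h1, pow_succ' u n, ← mul_assoc v u, h2, pow_succ' u (n + 1),
      pow_succ' v (n + 1), pow_succ' u n, pow_succ' v n]
    noncomm_ring

theorem map_cheb {R S F : Type*} [Ring R] [Ring S] [FunLike F R S] [RingHomClass F R S] (f : F)
    (t : R) : ∀ n, f (cheb t n) = cheb (f t) n
  | 0 => by simp only [cheb, map_ofNat]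
  | 1 => rfl
  | (n + 2) => by rw [cheb, cheb, map_sub, map_mul, map_cheb f t (n + 1), map_cheb f t n]

theorem two_lt_cheb {t : ℝ} (ht : 2 < t) : ∀ n, 2 ≤ cheb t n ∧ cheb t n < cheb t (n + 1)
  | 0 => by simp [cheb, ht]
  | (n + 1) => by
    obtain ⟨h1, h2⟩ := two_lt_cheb ht n
    refine ⟨by linarith, ?_⟩
    rw [cheb]
    nlinarith

theorem exists_coprime_mid {n : ℕ} (h0 : n ≠ 0) (h1 : n ≠ 1) (h3 : n ≠ 3) (h4 : n ≠ 4)
    (h6 : n ≠ 6) (h10 : n ≠ 10) : ∃ k, Nat.Coprime k n ∧ n < 3 * k ∧ 2 * k ≤ n := by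
  obtain ⟨j, rfl | rfl⟩ := Nat.even_or_odd' n
  · obtain ⟨i, rfl | rfl⟩ := Nat.even_or_odd' j
    · obtain ⟨i, rfl⟩ : ∃ l, i = l + 1 := ⟨i - 1, by omega⟩
      refine ⟨2 * i + 1, ?_, by omega, by omega⟩
      have : 2 * (2 * (i + 1)) = 2 + (2 * i + 1) * 2 := by ring
      rw [this, Nat.coprime_add_mul_left_right]
      simp
    · by_cases hi : i = 0
      · subst hi
        exact ⟨1, by simp, by omega, by omega⟩
      obtain ⟨i, rfl⟩ : ∃ l, i = l + 1 := ⟨i - 1, by omega⟩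
      refine ⟨2 * i + 1, ?_, by omega, by omega⟩
      have : 2 * (2 * (i + 1) + 1) = 2 ^ 2 + (2 * i + 1) * 2 := by ring
      rw [this, Nat.coprime_add_mul_left_right]
      exact Nat.Coprime.pow_right _ (by simp)
  · refine ⟨j, ?_, by omega, by omega⟩
    have : 2 * j + 1 = 1 + j * 2 := by ring
    rw [this, Nat.coprime_add_mul_left_right]
    simp

/-- norms of all nontrivial cyclic subgroups vanish -/
def NormZero {G A : Type*} [Group G] [Ring A] (ρ : G →* A) : Prop :=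
  ∀ u : G, u ≠ 1 → ∑ i ∈ Finset.range (orderOf u), ρ u ^ i = 0

variable {G A : Type*} [Group G] [Finite G] [Ring A] [Algebra ℚ A] [Nontrivial A] {ρ : G →* A}
  (hρ : NormZero ρ)
include hρ

theorem NormZero.transfer (g : G) {F : ℚ[X]} (hF : aeval (ρ g) F = 0) {ζ : ℂ}
    (hζ : IsPrimitiveRoot ζ (orderOf g)) : aeval ζ F = 0 := by
  have hn := orderOf_pos g
  have h1 : aeval (ρ g) (X ^ orderOf g - 1 : ℚ[X]) = 0 := by
    rw [map_sub, map_pow, aeval_X, ← map_pow, pow_orderOf_eq_one, map_one, map_one, sub_self]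
  have hint : IsIntegral ℚ (ρ g) := ⟨_, monic_X_pow_sub_C 1 hn.ne', h1⟩
  obtain ⟨η, hη⟩ := IsAlgClosed.exists_aeval_eq_zero ℂ (minpoly ℚ (ρ g))
    (minpoly.degree_pos hint).ne'
  have h2 : ∀ P : ℚ[X], aeval (ρ g) P = 0 → aeval η P = 0 := fun P hP =>
    aeval_eq_zero_of_dvd_aeval_eq_zero (minpoly.dvd ℚ _ hP) hη
  have h3 : IsPrimitiveRoot η (orderOf g) := by
    refine ⟨by simpa [sub_eq_zero] using h2 _ h1, fun l hl => ?_⟩
    by_contra hnl
    have h4 := h2 (∑ i ∈ Finset.range (orderOf (g ^ l)), (X ^ l) ^ i) (by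
      simpa using hρ (g ^ l) (fun h => hnl (orderOf_dvd_of_pow_eq_one h)))
    simp [hl, (orderOf_pos (g ^ l)).ne'] at h4
  refine aeval_eq_zero_of_dvd_aeval_eq_zero (minpoly.dvd ℚ η (h2 F hF)) ?_
  rw [← cyclotomic_eq_minpoly_rat h3 hn, cyclotomic_eq_minpoly_rat hζ hn]
  exact minpoly.aeval ℚ ζ

theorem NormZero.eq_one_of_sq {g : G} (h : (ρ g - 1) ^ 2 = 0) : g = 1 := by
  have h1 := hρ.transfer g (F := (X - 1) ^ 2) (by simpa using h)
    (Complex.isPrimitiveRoot_exp _ (orderOf_pos g).ne')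
  have h2 := Complex.isPrimitiveRoot_exp _ (orderOf_pos g).ne'
  simp only [map_pow, map_sub, aeval_X, map_one, ne_eq, OfNat.ofNat_ne_zero, not_false_eq_true,
    pow_eq_zero_iff, sub_eq_zero] at h1
  rw [h1] at h2
  exact orderOf_eq_one_iff.1 (IsPrimitiveRoot.one.unique h2).symm

theorem NormZero.injective : Function.Injective ρ := fun x y h => by
  rw [← mul_inv_eq_one]
  apply hρ.eq_one_of_sq
  rw [map_mul, h, ← map_mul, mul_inv_cancel, map_one, sub_self, sq, mul_zero]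

omit [Finite G] [Algebra ℚ A] [Nontrivial A] in
theorem NormZero.of_two {z : G} (hz : orderOf z = 2) : ρ z = -1 := by
  have := hρ z (ne_one_of_orderOf_eq_prime Nat.prime_two hz)
  rw [hz] at this
  simp only [Finset.sum_range_succ, Finset.range_zero, Finset.sum_empty, pow_zero, pow_one,
    zero_add] at this
  exact eq_neg_of_add_eq_zero_right this

omit [Finite G] [Algebra ℚ A] [Nontrivial A] in
theorem NormZero.of_three {a : G} (ha : orderOf a = 3) : ρ a * ρ a = -1 - ρ a := by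
  have := hρ a (ne_one_of_orderOf_eq_prime Nat.prime_three ha)
  rw [ha] at this
  simp only [Finset.sum_range_succ, Finset.range_zero, Finset.sum_empty, pow_zero, pow_one,
    zero_add] at this
  rw [← sq, eq_neg_of_add_eq_zero_right this]
  abel

omit [Finite G] [Algebra ℚ A] [Nontrivial A] in
theorem NormZero.inv_of_three {a : G} (ha : orderOf a = 3) : ρ a⁻¹ = -1 - ρ a := by
  rw [← hρ.of_three ha, ← map_mul]
  congr 1
  rw [inv_eq_iff_mul_eq_one, ← pow_orderOf_eq_one a, ha, pow_three]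

theorem NormZero.orderOf_cases {g h : G} (H : ρ g + ρ g⁻¹ + (ρ h + ρ h⁻¹) = 1) :
    orderOf g = 1 ∨ orderOf g = 3 ∨ orderOf g = 4 ∨ orderOf g = 6 ∨ orderOf g = 10 := by
  by_contra hcon
  push Not at hcon
  obtain ⟨h1, h3, h4, h6, h10⟩ := hcon
  have hn := orderOf_pos g
  obtain ⟨k, hk, hk1, hk2⟩ := exists_coprime_mid hn.ne' h1 h3 h4 h6 h10
  set n := orderOf g with hndef
  have hinv : ρ g⁻¹ = ρ g ^ (n - 1) := by
    rw [← map_pow]
    congr 1
    rw [inv_eq_iff_mul_eq_one, ← pow_succ', Nat.sub_add_cancel hn, pow_orderOf_eq_one]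
  have hζ := Complex.isPrimitiveRoot_exp_of_coprime k n hn.ne' hk
  have key := hρ.transfer g (F := cheb (1 - X - X ^ (n - 1)) (orderOf h) - 2) (by
    rw [map_sub, map_cheb]
    have : aeval (ρ g) (1 - X - X ^ (n - 1) : ℚ[X]) = ρ h + ρ h⁻¹ := by
      simp only [map_sub, map_one, aeval_X, map_pow, ← hinv]
      rw [← H]
      abel
    rw [this, cheb_add (by rw [← map_mul, mul_inv_cancel, map_one])
      (by rw [← map_mul, inv_mul_cancel, map_one]), ← map_pow, ← map_pow, inv_pow,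
      pow_orderOf_eq_one, inv_one, map_one, map_ofNat, one_add_one_eq_two, sub_self]) hζ
  set θ : ℝ := 2 * Real.pi * (k / n) with hθ
  have hζθ : Complex.exp (2 * Real.pi * Complex.I * (k / n)) = Complex.exp (θ * Complex.I) := by
    rw [hθ]; push_cast; ring_nf
  rw [hζθ] at key hζ
  have h5 : Complex.exp (θ * Complex.I) ^ (n - 1) = Complex.exp (-θ * Complex.I) := by
    rw [neg_mul, Complex.exp_neg]
    refine eq_inv_of_mul_eq_one_left ?_
    rw [← pow_succ, Nat.sub_add_cancel hn, hζ.pow_eq_one]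
  have h7 : aeval (Complex.exp (θ * Complex.I)) (1 - X - X ^ (n - 1) : ℚ[X]) =
      Complex.ofRealHom (1 - 2 * Real.cos θ) := by
    simp only [map_sub, map_one, aeval_X, map_pow, h5]
    rw [Complex.ofRealHom_eq_coe]
    push_cast
    rw [Complex.two_cos]
    ring
  rw [map_sub, map_cheb, h7, ← map_cheb, map_ofNat, sub_eq_zero, Complex.ofRealHom_eq_coe] at key
  have key' : cheb (1 - 2 * Real.cos θ) (orderOf h) = 2 := by exact_mod_cast key
  have hn' : (0 : ℝ) < n := by exact_mod_cast hn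
  have hcos : Real.cos θ < -1 / 2 := by
    have e : Real.cos (2 * Real.pi / 3) = -1 / 2 := by
      rw [show 2 * Real.pi / 3 = Real.pi - Real.pi / 3 by ring, Real.cos_pi_sub,
        Real.cos_pi_div_three]
      norm_num
    rw [← e]
    have hk1' : (1 : ℝ) / 3 < k / n := by
      rw [div_lt_div_iff₀ (by norm_num) hn']
      have : (n : ℝ) < 3 * k := by exact_mod_cast hk1
      linarith
    have hk2' : (k : ℝ) / n ≤ 1 / 2 := by
      rw [div_le_div_iff₀ hn' (by norm_num)]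
      have : (2 : ℝ) * k ≤ n := by exact_mod_cast hk2
      linarith
    have := Real.pi_pos
    exact Real.cos_lt_cos_of_nonneg_of_le_pi (by positivity) (by rw [hθ]; nlinarith)
      (by rw [hθ]; nlinarith)
  obtain ⟨m, hm⟩ : ∃ m, orderOf h = m + 1 := ⟨_, (Nat.sub_add_cancel (orderOf_pos h)).symm⟩
  obtain ⟨h8, h9⟩ := two_lt_cheb (t := 1 - 2 * Real.cos θ) (by linarith) m
  rw [hm] at key'
  linarith

/-- the invariant of a pair of elements of order three -/
def sig3 {A : Type*} [Ring A] (α β : A) : A := α * β + β * α + α + β + 1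

omit [Finite G] [Algebra ℚ A] [Nontrivial A] in
theorem NormZero.sig3_eq {a b : G} (ha : orderOf a = 3) (hb : orderOf b = 3) :
    sig3 (ρ a) (ρ b) = ρ (a * b) + ρ (a * b)⁻¹ := by
  rw [mul_inv_rev, map_mul, map_mul, hρ.inv_of_three ha, hρ.inv_of_three hb, sig3]
  noncomm_ring

omit [Finite G] [Algebra ℚ A] [Nontrivial A] in
theorem NormZero.sig3_inv {a b : G} (hb : orderOf b = 3) :
    sig3 (ρ a) (ρ b⁻¹) = 1 - sig3 (ρ a) (ρ b) := by
  rw [hρ.inv_of_three hb, sig3, sig3]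
  noncomm_ring

theorem NormZero.sig3_cases {a b : G} (ha : orderOf a = 3) (hb : orderOf b = 3) :
    b = a ∨ b = a⁻¹ ∨ sig3 (ρ a) (ρ b) = 0 ∨ sig3 (ρ a) (ρ b) = 1 ∨
      sig3 (ρ a) (ρ b) * sig3 (ρ a) (ρ b) = sig3 (ρ a) (ρ b) + 1 := by
  have hb' : orderOf b⁻¹ = 3 := by rwa [orderOf_inv]
  have h1 := hρ.sig3_eq ha hb
  have h2 := hρ.sig3_eq ha hb'
  rw [hρ.sig3_inv hb, h1] at h2
  have hinv : ∀ n, orderOf (a * b) = n + 1 → ρ (a * b)⁻¹ = ρ (a * b) ^ n := by
    intro n hn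
    rw [← map_pow]
    congr 1
    rw [inv_eq_iff_mul_eq_one, ← pow_succ', ← hn, pow_orderOf_eq_one]
  have hpow : ∀ n m k : ℕ, orderOf (a * b) = n → n / n.gcd m = k → orderOf ((a * b) ^ m) = k :=
    fun n m k hn hk => by rw [orderOf_pow, hn, hk]
  rcases hρ.orderOf_cases (g := a * b) (h := a * b⁻¹) (by rw [← h2]; abel) with h | h | h | h | h
  · exact Or.inr (Or.inl (eq_inv_of_mul_eq_one_right (orderOf_eq_one_iff.1 h)))
  · left
    rw [hρ.inv_of_three h] at h2
    have h3 : ρ (a * b⁻¹) * ρ (a * b⁻¹)⁻¹ = 1 := by rw [← map_mul, mul_inv_cancel, map_one]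
    refine (mul_inv_eq_one.1 (hρ.eq_one_of_sq ?_)).symm
    linear_combination (norm := noncomm_ring) -ρ (a * b⁻¹) * h2 - h3
  · refine Or.inr (Or.inr (Or.inl ?_))
    have h3 := hρ.of_two (hpow 4 2 2 h rfl)
    rw [map_pow] at h3
    rw [h1, hinv 3 h]
    linear_combination (norm := noncomm_ring) ρ (a * b) * h3
  · refine Or.inr (Or.inr (Or.inr (Or.inl ?_)))
    have h3 := hρ.of_two (hpow 6 3 2 h rfl)
    have h4 := hρ.of_three (hpow 6 2 3 h rfl)
    rw [map_pow] at h3 h4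
    rw [h1, hinv 5 h]
    generalize ρ (a * b) = γ at *
    linear_combination (norm := noncomm_ring) (γ ^ 2 + γ) * h3 - h4
  · refine Or.inr (Or.inr (Or.inr (Or.inr ?_)))
    have h3 := hρ.of_two (hpow 10 5 2 h rfl)
    have h5 := hpow 10 2 5 h rfl
    have h4 := hρ _ (ne_one_of_orderOf_eq_prime (by norm_num) h5)
    rw [h5] at h4
    simp only [Finset.sum_range_succ, Finset.range_zero, Finset.sum_empty, zero_add] at h4
    rw [map_pow] at h3 h4
    rw [h1, hinv 9 h]
    generalize ρ (a * b) = γ at *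
    have h6 : γ ^ 9 = -γ ^ 4 := by linear_combination (norm := noncomm_ring) γ ^ 4 * h3
    rw [h6]
    linear_combination (norm := (noncomm_ring; simp)) (-2 - γ) * h3 + h4

end Cfsg.Agent.Local
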