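import Mathlib
import Cfsg.Agent.Local.ZasOrd

/-! Elements of order three forming `SL(2,3)` with a given one: at most two classes. -/

set_option autoImplicit false
set_option linter.unusedSimpArgs false

namespace Cfsg.Agent.Local

open Subgroup

section Ring

variable {A : Type*} [Ring A] [Algebra ℚ A] [Nontrivial A]

omit [Nontrivial A] in
theorem eq_zero_of_zsmul_eq_zero (n : ℤ) (hn : n ≠ 0) {x : A} (h : n • x = 0) : x = 0 := by
  rw [← Int.cast_smul_eq_zsmul ℚ, smul_eq_zero] at h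
  exact h.resolve_left (by exact_mod_cast hn)

theorem false_of_zsmul_one (A : Type*) [Ring A] [Algebra ℚ A] [Nontrivial A] (n : ℤ) (hn : n ≠ 0)
    (h : n • (1 : A) = 0) : False :=
  one_ne_zero (eq_zero_of_zsmul_eq_zero n hn h)

theorem k1_aux {s t u : A} (h1 : s + t + u = 1) (h2 : s * s + t * t + u * u = (3 : ℤ) • 1)
    (hs : s = (2 : ℤ) • 1 ∨ s = 1 ∨ s * s = s + 1) (ht : t = (2 : ℤ) • 1 ∨ t = 1 ∨ t * t = t + 1)
    (hu : u = (2 : ℤ) • 1 ∨ u = 1 ∨ u * u = u + 1) : False := by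
  have key : ∀ s t : A, s + t = 0 → s * s = s + 1 → t * t = t + 1 → False := by
    intro s t h hs ht
    have h3 : t = -s := eq_neg_of_add_eq_zero_right h
    subst h3
    have h4 : s = 0 := eq_zero_of_zsmul_eq_zero 2 two_ne_zero
      (by linear_combination (norm := noncomm_ring) ht - hs)
    rw [h4] at hs
    simp at hs
  have f : ∀ x : A, x = (2 : ℤ) • 1 ∨ x = 1 ∨ x * x = x + 1 → ∃ c : ℤ, x * x = x + c • 1 ∧
      ((c = 2 ∧ x = (2 : ℤ) • 1) ∨ (c = 0 ∧ x = 1) ∨ (c = 1 ∧ x * x = x + 1)) := by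
    rintro x (rfl | rfl | h)
    · exact ⟨2, by noncomm_ring, Or.inl ⟨rfl, rfl⟩⟩
    · exact ⟨0, by noncomm_ring, Or.inr (Or.inl ⟨rfl, rfl⟩)⟩
    · exact ⟨1, by rw [h, one_smul], Or.inr (Or.inr ⟨rfl, h⟩)⟩
  obtain ⟨c1, a1, b1⟩ := f s hs
  obtain ⟨c2, a2, b2⟩ := f t ht
  obtain ⟨c3, a3, b3⟩ := f u hu
  have hc : c1 + c2 + c3 = 2 := by
    by_contra hne
    refine false_of_zsmul_one A (c1 + c2 + c3 - 2) (sub_ne_zero.2 hne) ?_
    linear_combination (norm := module) h2 - h1 - a1 - a2 - a3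
  rcases b1 with ⟨rfl, e1⟩ | ⟨rfl, e1⟩ | ⟨rfl, e1⟩ <;>
    rcases b2 with ⟨rfl, e2⟩ | ⟨rfl, e2⟩ | ⟨rfl, e2⟩ <;>
    rcases b3 with ⟨rfl, e3⟩ | ⟨rfl, e3⟩ | ⟨rfl, e3⟩ <;> try omega
  · exact false_of_zsmul_one A 3 (by norm_num)
      (by linear_combination (norm := module) h1 - e1 - e2 - e3)
  · exact false_of_zsmul_one A 3 (by norm_num)
      (by linear_combination (norm := module) h1 - e1 - e2 - e3)
  · exact false_of_zsmul_one A 3 (by norm_num)
      (by linear_combination (norm := module) h1 - e1 - e2 - e3)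
  · exact key t u (by linear_combination (norm := module) h1 - e1) e2 e3
  · exact key s u (by linear_combination (norm := module) h1 - e2) e1 e3
  · exact key s t (by linear_combination (norm := module) h1 - e3) e1 e2

theorem k1_rat_aux {s t u : A} (h1 : s + t + u = 1) (h2 : s * s + t * t + u * u = (3 : ℤ) • 1)
    (hs : s = (2 : ℤ) • 1 ∨ s = 1 ∨ s = 0) (ht : t = (2 : ℤ) • 1 ∨ t = 1 ∨ t = 0)
    (hu : u = (2 : ℤ) • 1 ∨ u = 1 ∨ u = 0) : False := by
  have f : ∀ x : A, x = (2 : ℤ) • 1 ∨ x = 1 ∨ x = 0 → ∃ c : ℤ, x = c • 1 ∧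
      (c = 2 ∨ c = 1 ∨ c = 0) := by
    rintro x (rfl | rfl | rfl)
    · exact ⟨2, rfl, Or.inl rfl⟩
    · exact ⟨1, by simp, Or.inr (Or.inl rfl)⟩
    · exact ⟨0, by simp, Or.inr (Or.inr rfl)⟩
  obtain ⟨c1, rfl, b1⟩ := f s hs
  obtain ⟨c2, rfl, b2⟩ := f t ht
  obtain ⟨c3, rfl, b3⟩ := f u hu
  have hc : c1 + c2 + c3 = 1 := by
    by_contra hne
    refine false_of_zsmul_one A (c1 + c2 + c3 - 1) (sub_ne_zero.2 hne) ?_
    linear_combination (norm := module) h1
  have hc' : c1 * c1 + c2 * c2 + c3 * c3 = 3 := by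
    by_contra hne
    refine false_of_zsmul_one A _ (sub_ne_zero.2 hne) ?_
    simp only [smul_mul_assoc, one_mul] at h2
    linear_combination (norm := module) h2
  rcases b1 with rfl | rfl | rfl <;> rcases b2 with rfl | rfl | rfl <;>
    rcases b3 with rfl | rfl | rfl <;> omega

/-- the component of `3 β` orthogonal to `α` -/
def perp {A : Type*} [Ring A] (α β : A) : A := (3 : ℤ) • β - α + 1

omit [Algebra ℚ A] [Nontrivial A] in
theorem perp_mul {α β : A} (hα : α * α = -1 - α) (h : sig3 α β = 0) :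
    perp α β * α = -perp α β - α * perp α β := by
  rw [sig3] at h
  rw [perp]
  linear_combination (norm := noncomm_ring) (3 : ℤ) • h - (2 : ℤ) • hα

omit [Algebra ℚ A] [Nontrivial A] in
theorem perp_sq {α β : A} (hα : α * α = -1 - α) (hβ : β * β = -1 - β) (h : sig3 α β = 0) :
    perp α β * perp α β = (-6 : ℤ) • 1 := by
  rw [sig3] at h
  rw [perp]
  linear_combination (norm := noncomm_ring) (9 : ℤ) • hβ - (3 : ℤ) • h + hα

omit [Algebra ℚ A] [Nontrivial A] in
theorem sig3_perp {α β γ : A} (hα : α * α = -1 - α) (h : sig3 α β = 0) (h' : sig3 α γ = 0) :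
    (9 : ℤ) • sig3 β γ = perp α β * perp α γ + perp α γ * perp α β + (3 : ℤ) • 1 := by
  rw [sig3] at h h'
  rw [perp, perp, sig3]
  linear_combination (norm := noncomm_ring) (3 : ℤ) • h + (3 : ℤ) • h' - (2 : ℤ) • hα

omit [Algebra ℚ A] [Nontrivial A] in
theorem perp_conj {α β : A} (hα : α * α = -1 - α) (h : sig3 α β = 0) :
    perp α (α * β * (-1 - α)) = (-1 - α) * perp α β := by
  rw [sig3] at h
  rw [perp, perp]
  linear_combination (norm := noncomm_ring) (-3 : ℤ) • α * h + (3 : ℤ) • hα * β + (2 : ℤ) • hα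

omit [Algebra ℚ A] [Nontrivial A] in
theorem perp_conj' {α β : A} (hα : α * α = -1 - α) (h : sig3 α β = 0) :
    perp α ((-1 - α) * β * α) = α * perp α β := by
  rw [sig3] at h
  rw [perp, perp]
  linear_combination (norm := noncomm_ring) (-3 : ℤ) • (1 + α) * h + (3 : ℤ) • hα * β +
    (4 : ℤ) • hα

omit [Algebra ℚ A] [Nontrivial A] in
theorem sums_perp {α U V : A} (hα : α * α = -1 - α) (hU : U * α = -U - α * U)
    (hV : V * α = -V - α * V) (hUU : U * U = (-6 : ℤ) • 1) (hVV : V * V = (-6 : ℤ) • 1)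
    {s t u : A} (hs : s = U * V + V * U + (3 : ℤ) • 1)
    (ht : t = U * ((-1 - α) * V) + (-1 - α) * V * U + (3 : ℤ) • 1)
    (hu : u = U * (α * V) + α * V * U + (3 : ℤ) • 1) :
    s + t + u = (9 : ℤ) • 1 ∧ s * s + t * t + u * u = (243 : ℤ) • 1 := by
  have hα' : ∀ z, α * (α * z) = -z - α * z := fun z => by
    rw [← mul_assoc, hα]; noncomm_ring
  have hU' : ∀ z, U * (α * z) = -(U * z) - α * (U * z) := fun z => by
    rw [← mul_assoc, hU]; noncomm_ring
  have hV' : ∀ z, V * (α * z) = -(V * z) - α * (V * z) := fun z => by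
    rw [← mul_assoc, hV]; noncomm_ring
  have hUU' : ∀ z, U * (U * z) = (-6 : ℤ) • z := fun z => by
    rw [← mul_assoc, hUU]; noncomm_ring
  have hVV' : ∀ z, V * (V * z) = (-6 : ℤ) • z := fun z => by
    rw [← mul_assoc, hVV]; noncomm_ring
  subst hs ht hu
  constructor
  · noncomm_ring
  · simp only [mul_add, add_mul, mul_sub, sub_mul, mul_assoc, neg_mul, mul_neg, one_mul, mul_one,
      smul_mul_assoc, mul_smul_comm, hα, hα', hU, hU', hV, hV', hUU, hUU', hVV, hVV']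
    module

theorem sq_eq_of_mul_eq {V W : A} (hV : V * V = (-90 : ℤ) • 1) (hW : W * W = (-90 : ℤ) • 1)
    {c : ℤ} (h : V * W = c • 1) : c * c = 8100 := by
  by_contra hne
  have h1 : (-90 : ℤ) • W = c • V := by
    linear_combination (norm := noncomm_ring) V * h - hV * W
  have h2 : ((-90 : ℤ) • W) * ((-90 : ℤ) • W) = (c • V) * (c • V) := by rw [h1]
  simp only [smul_mul_assoc, mul_smul_comm, hV, hW] at h2
  refine false_of_zsmul_one A (90 * (c * c - 8100)) (mul_ne_zero (by norm_num) (sub_ne_zero.2 hne)) ?_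
  linear_combination (norm := module) h2

theorem k2_irr {x U V W : A} (hx : x * x = (-3 : ℤ) • 1) (hU : U * U = (-6 : ℤ) • 1)
    (hV : V * V = (-90 : ℤ) • 1) (hW : W * W = (-90 : ℤ) • 1) (xU : U * x = -(x * U))
    (xV : V * x = -(x * V)) (xW : W * x = -(x * W)) (UV : V * U = -(U * V))
    (UW : W * U = -(U * W))
    (E : (x - 1) * ((U + V) * (U + W)) + (-x - 1) * ((U + W) * (U + V)) + (96 : ℤ) • 1 = 0) :
    False := by
  have hx' : ∀ z, x * (x * z) = (-3 : ℤ) • z := fun z => by rw [← mul_assoc, hx]; noncomm_ring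
  have hU' : ∀ z, U * (U * z) = (-6 : ℤ) • z := fun z => by rw [← mul_assoc, hU]; noncomm_ring
  have hV' : ∀ z, V * (V * z) = (-90 : ℤ) • z := fun z => by rw [← mul_assoc, hV]; noncomm_ring
  have hW' : ∀ z, W * (W * z) = (-90 : ℤ) • z := fun z => by rw [← mul_assoc, hW]; noncomm_ring
  have xU' : ∀ z, U * (x * z) = -(x * (U * z)) := fun z => by rw [← mul_assoc, xU]; noncomm_ring
  have xV' : ∀ z, V * (x * z) = -(x * (V * z)) := fun z => by rw [← mul_assoc, xV]; noncomm_ring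
  have xW' : ∀ z, W * (x * z) = -(x * (W * z)) := fun z => by rw [← mul_assoc, xW]; noncomm_ring
  have UV' : ∀ z, V * (U * z) = -(U * (V * z)) := fun z => by rw [← mul_assoc, UV]; noncomm_ring
  have UW' : ∀ z, W * (U * z) = -(U * (W * z)) := fun z => by rw [← mul_assoc, UW]; noncomm_ring
  have C : W * V = V * W := by
    rw [← sub_eq_zero]
    refine eq_zero_of_zsmul_eq_zero 36 (by norm_num) ?_
    linear_combination (norm := skip) x * U * E * U - x * E * U * U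
    simp only [mul_add, add_mul, mul_sub, sub_mul, mul_assoc, neg_mul, mul_neg, one_mul, mul_one,
      smul_mul_assoc, mul_smul_comm, hx, hx', hU, hU', xU, xU', xV, xV', xW, xW', UV, UV', UW, UW',
      mul_zero, zero_mul]
    module
  have C' : ∀ z, W * (V * z) = V * (W * z) := fun z => by rw [← mul_assoc, C, mul_assoc]
  have h1 : W = -V := by
    rw [eq_neg_iff_add_eq_zero]
    refine eq_zero_of_zsmul_eq_zero 288 (by norm_num) ?_
    linear_combination (norm := skip) (W + V) * E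
    simp only [mul_add, add_mul, mul_sub, sub_mul, mul_assoc, neg_mul, mul_neg, one_mul, mul_one,
      smul_mul_assoc, mul_smul_comm, hx, hx', hU, hU', xU, xU', xV, xV', xW, xW', UV, UV', UW, UW',
      mul_zero, zero_mul, C, C', hV, hV', hW, hW']
    module
  subst h1
  have h2 : x * (U * V) = (-18 : ℤ) • 1 := by
    rw [← sub_eq_zero]
    refine eq_zero_of_zsmul_eq_zero (-4) (by norm_num) ?_
    linear_combination (norm := skip) E
    simp only [mul_add, add_mul, mul_sub, sub_mul, mul_assoc, neg_mul, mul_neg, one_mul, mul_one,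
      smul_mul_assoc, mul_smul_comm, hU, hU', UV, hV]
    module
  have h3 : x * (U * V) * (x * (U * V)) = ((-18 : ℤ) • 1) * ((-18 : ℤ) • 1) := by rw [h2]
  refine false_of_zsmul_one A 1296 (by norm_num) ?_
  linear_combination (norm := skip) h3
  simp only [mul_add, add_mul, mul_sub, sub_mul, mul_assoc, neg_mul, mul_neg, one_mul, mul_one,
    smul_mul_assoc, mul_smul_comm, hx, hx', hU, hU', xU, xU', xV, xV', UV, UV', hV, hV']
  module

theorem k2_rat {x U V W : A} (hU : U * U = (-6 : ℤ) • 1)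
    (hV : V * V = (-90 : ℤ) • 1) (hW : W * W = (-90 : ℤ) • 1) (xU : U * x = -(x * U))
    (UV : V * U = -(U * V)) (UW : W * U = -(U * W)) {l m : ℤ}
    (E : ((3 : ℤ) • U - V) * ((3 : ℤ) • U - W) = l • 1 + m • x) : (l + 54) * (l + 54) = 8100 := by
  have hU' : ∀ z, U * (U * z) = (-6 : ℤ) • z := fun z => by rw [← mul_assoc, hU]; noncomm_ring
  have xU' : ∀ z, U * (x * z) = -(x * (U * z)) := fun z => by rw [← mul_assoc, xU]; noncomm_ring
  have UV' : ∀ z, V * (U * z) = -(U * (V * z)) := fun z => by rw [← mul_assoc, UV]; noncomm_ring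
  have UW' : ∀ z, W * (U * z) = -(U * (W * z)) := fun z => by rw [← mul_assoc, UW]; noncomm_ring
  refine sq_eq_of_mul_eq hV hW ?_
  rw [← sub_eq_zero]
  refine eq_zero_of_zsmul_eq_zero (-12) (by norm_num) ?_
  linear_combination (norm := skip) U * U * E + U * E * U
  simp only [mul_add, add_mul, mul_sub, sub_mul, mul_assoc, neg_mul, mul_neg, one_mul, mul_one,
    smul_mul_assoc, mul_smul_comm, hU, hU', xU, xU', UV, UV', UW, UW']
  module

omit [Algebra ℚ A] [Nontrivial A] in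
theorem anti_of_perp {α U : A} (h : U * α = -U - α * U) :
    U * ((2 : ℤ) • α + 1) = -(((2 : ℤ) • α + 1) * U) := by
  linear_combination (norm := noncomm_ring) (2 : ℤ) • h

omit [Algebra ℚ A] [Nontrivial A] in
theorem perp_add_of_sig3 {α β γ : A} (hα : α * α = -1 - α) (h : sig3 α β = 0) (h' : sig3 α γ = 0)
    (h'' : sig3 β γ = 0) : perp α γ * perp α β = (-3 : ℤ) • 1 - perp α β * perp α γ := by
  have := sig3_perp hα h h'
  rw [h''] at this
  linear_combination (norm := module) -this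

theorem k2_ring {α β γ δ : A} (hα : α * α = -1 - α) (hβ : β * β = -1 - β) (hγ : γ * γ = -1 - γ)
    (hδ : δ * δ = -1 - δ) (h1 : sig3 α β = 0) (h2 : sig3 α γ = 0) (h3 : sig3 α δ = 0)
    (h12 : sig3 β γ = 0) (h13 : sig3 β δ = 0) :
    (∀ ε, ε = α * δ * (-1 - α) ∨ ε = (-1 - α) * δ * α → sig3 α ε = 0 → sig3 γ ε ≠ 0) ∧
      ∀ l m : ℤ, (144 : ℤ) • ((β - γ) * (β - δ)) = l • 1 + m • ((2 : ℤ) • α + 1) →
        (l + 54) * (l + 54) = 8100 := by
  have hx : ((2 : ℤ) • α + 1) * ((2 : ℤ) • α + 1) = (-3 : ℤ) • 1 := by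
    linear_combination (norm := noncomm_ring) (4 : ℤ) • hα
  have a1 := perp_mul hα h1
  have a2 := perp_mul hα h2
  have a3 := perp_mul hα h3
  have b1 := perp_sq hα hβ h1
  have b2 := perp_sq hα hγ h2
  have b3 := perp_sq hα hδ h3
  have c2 := perp_add_of_sig3 hα h1 h2 h12
  have c3 := perp_add_of_sig3 hα h1 h3 h13
  have d2 : (3 : ℤ) • (β - γ) = perp α β - perp α γ := by simp only [perp]; module
  have d3 : (3 : ℤ) • (β - δ) = perp α β - perp α δ := by simp only [perp]; module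
  have e1 := perp_conj hα h3
  have e2 := perp_conj' hα h3
  have e3 := fun ε => sig3_perp (γ := ε) hα h2
  generalize perp α β = U at *
  generalize perp α γ = V at *
  generalize perp α δ = W at *
  have hsq : ∀ X : A, X * X = (-6 : ℤ) • 1 → X * U = (-3 : ℤ) • 1 - U * X →
      ((4 : ℤ) • X - U) * ((4 : ℤ) • X - U) = (-90 : ℤ) • 1 := fun X h h' => by
    linear_combination (norm := noncomm_ring) (16 : ℤ) • h - (4 : ℤ) • h' + b1
  have hU : ∀ X : A, X * U = (-3 : ℤ) • 1 - U * X →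
      ((4 : ℤ) • X - U) * U = -(U * ((4 : ℤ) • X - U)) := fun X h' => by
    linear_combination (norm := noncomm_ring) (4 : ℤ) • h' - (2 : ℤ) • b1
  have hx' : ∀ X : A, X * α = -X - α * X → ((4 : ℤ) • X - U) * ((2 : ℤ) • α + 1) =
      -(((2 : ℤ) • α + 1) * ((4 : ℤ) • X - U)) := fun X h' => by
    linear_combination (norm := noncomm_ring) (8 : ℤ) • h' - (2 : ℤ) • a1
  refine ⟨fun ε hε h4 h5 => ?_, fun l m h => ?_⟩
  · have h6 := e3 ε h4
    rw [h5] at h6
    rcases hε with rfl | rfl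
    · rw [e1] at h6
      refine k2_irr hx b1 (hsq V b2 c2) (hsq W b3 c3) (anti_of_perp a1) (hx' V a2) (hx' W a3)
        (hU V c2) (hU W c3) ?_
      linear_combination (norm := noncomm_ring) (-32 : ℤ) • h6 + (32 : ℤ) • a2 * W
    · rw [e2] at h6
      refine k2_irr (x := -((2 : ℤ) • α + 1)) (by rw [neg_mul_neg, hx]) b1 (hsq V b2 c2)
        (hsq W b3 c3) (by rw [mul_neg, neg_mul, anti_of_perp a1])
        (by rw [mul_neg, neg_mul, hx' V a2]) (by rw [mul_neg, neg_mul, hx' W a3])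
        (hU V c2) (hU W c3) ?_
      linear_combination (norm := noncomm_ring) (-32 : ℤ) • h6 - (32 : ℤ) • a2 * W
  · refine k2_rat (m := m) b1 (hsq V b2 c2) (hsq W b3 c3) (anti_of_perp a1) (hU V c2) (hU W c3) ?_
    have f2 : (3 : ℤ) • U - ((4 : ℤ) • V - U) = (12 : ℤ) • (β - γ) := by
      linear_combination (norm := module) (-4 : ℤ) • d2
    have f3 : (3 : ℤ) • U - ((4 : ℤ) • W - U) = (12 : ℤ) • (β - δ) := by
      linear_combination (norm := module) (-4 : ℤ) • d3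
    rw [f2, f3, ← h, smul_mul_assoc, mul_smul_comm, smul_smul]
    norm_num

end Ring

theorem mem_zpowers_three {G : Type*} [Group G] {a k : G} (ha : orderOf a = 3)
    (hk : k ∈ zpowers a) : k = 1 ∨ k = a ∨ k = a⁻¹ := by
  obtain ⟨n, rfl⟩ := hk
  have ha' : a ^ (2 : ℤ) = a⁻¹ := by
    rw [eq_inv_iff_mul_eq_one, ← zpow_add_one, ← pow_orderOf_eq_one a, ha, ← zpow_natCast]
    rfl
  change a ^ n = 1 ∨ a ^ n = a ∨ a ^ n = a⁻¹
  rw [← zpow_mod_orderOf, ha]
  have : n % (3 : ℕ) = 0 ∨ n % (3 : ℕ) = 1 ∨ n % (3 : ℕ) = 2 := by omega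
  rcases this with h | h | h <;> rw [h] <;> simp [ha']

variable {G A : Type*} [Group G] [Finite G] [Ring A] [Algebra ℚ A] [Nontrivial A] {ρ : G →* A}

/-- `b` has order three and generates `SL(2,3)` with `a`, `a * b` having order four -/
def T3 (ρ : G →* A) (a b : G) : Prop := orderOf b = 3 ∧ sig3 (ρ a) (ρ b) = 0

omit [Finite G] [Algebra ℚ A] [Nontrivial A] in
theorem sig3_conj (k a b : G) :
    sig3 (ρ (k * a * k⁻¹)) (ρ (k * b * k⁻¹)) = ρ k * sig3 (ρ a) (ρ b) * ρ k⁻¹ := by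
  simp only [sig3, mul_add, add_mul, ← map_mul, mul_one]
  simp [mul_assoc]

omit [Finite G] [Algebra ℚ A] [Nontrivial A] in
theorem T3.conj {a b k : G} (h : T3 ρ a b) (hk : k * a = a * k) : T3 ρ a (k * b * k⁻¹) := by
  refine ⟨(orderOf_conj' k b).trans h.1, ?_⟩
  have := sig3_conj (ρ := ρ) k a b
  rwa [h.2, hk, mul_inv_cancel_right, mul_zero, zero_mul] at this

omit [Finite G] [Algebra ℚ A] [Nontrivial A] in
theorem T3.conj_zpowers {a b k : G} (h : T3 ρ a b) (hk : k ∈ zpowers a) :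
    T3 ρ a (k * b * k⁻¹) :=
  h.conj (comm_zpowers a k hk a (mem_zpowers a))

variable (hρ : NormZero ρ)
include hρ

omit [Finite G] [Nontrivial A] in
theorem NormZero.sums {a b c : G} (ha : orderOf a = 3) (hb : T3 ρ a b) (hc : T3 ρ a c) :
    sig3 (ρ b) (ρ c) + sig3 (ρ b) (ρ (a * c * a⁻¹)) + sig3 (ρ b) (ρ (a⁻¹ * c * a⁻¹⁻¹)) = 1 ∧
    sig3 (ρ b) (ρ c) * sig3 (ρ b) (ρ c) +
      sig3 (ρ b) (ρ (a * c * a⁻¹)) * sig3 (ρ b) (ρ (a * c * a⁻¹)) +
      sig3 (ρ b) (ρ (a⁻¹ * c * a⁻¹⁻¹)) * sig3 (ρ b) (ρ (a⁻¹ * c * a⁻¹⁻¹)) = (3 : ℤ) • 1 := by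
  have hα := hρ.of_three ha
  have h0 := sig3_perp hα hb.2 hc.2
  have h1 := sig3_perp hα hb.2 (hc.conj_zpowers (mem_zpowers a)).2
  have h2 := sig3_perp hα hb.2 (hc.conj_zpowers (inv_mem (mem_zpowers a))).2
  have e1 : perp (ρ a) (ρ (a * c * a⁻¹)) = (-1 - ρ a) * perp (ρ a) (ρ c) := by
    rw [map_mul, map_mul, hρ.inv_of_three ha, perp_conj hα hc.2]
  have e2 : perp (ρ a) (ρ (a⁻¹ * c * a⁻¹⁻¹)) = ρ a * perp (ρ a) (ρ c) := by
    rw [inv_inv, map_mul, map_mul, hρ.inv_of_three ha, perp_conj' hα hc.2]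
  rw [e1] at h1
  rw [e2] at h2
  obtain ⟨h3, h4⟩ := sums_perp hα (perp_mul hα hb.2) (perp_mul hα hc.2)
    (perp_sq hα (hρ.of_three hb.1) hb.2) (perp_sq hα (hρ.of_three hc.1) hc.2) h0 h1 h2
  simp only [smul_mul_assoc, mul_smul_comm] at h4
  constructor
  · rw [← sub_eq_zero]
    exact eq_zero_of_zsmul_eq_zero 9 (by norm_num) (by linear_combination (norm := module) h3)
  · rw [← sub_eq_zero]
    exact eq_zero_of_zsmul_eq_zero 81 (by norm_num) (by linear_combination (norm := module) h4)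

omit [Finite G] [Algebra ℚ A] [Nontrivial A] in
theorem NormZero.sig3_self_inv {b : G} (hb : orderOf b = 3) :
    sig3 (ρ b) (ρ b⁻¹) = (2 : ℤ) • 1 := by
  rw [hρ.inv_of_three hb, sig3]
  linear_combination (norm := noncomm_ring) (-2 : ℤ) • hρ.of_three hb

theorem NormZero.k1 {a b c : G} (ha : orderOf a = 3) (hb : T3 ρ a b) (hc : T3 ρ a c) :
    ∃ k ∈ zpowers a, k * c * k⁻¹ = b ∨ sig3 (ρ b) (ρ (k * c * k⁻¹)) = 0 := by
  by_contra hcon
  push Not at hcon
  have key : ∀ k ∈ zpowers a, sig3 (ρ b) (ρ (k * c * k⁻¹)) = (2 : ℤ) • 1 ∨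
      sig3 (ρ b) (ρ (k * c * k⁻¹)) = 1 ∨ sig3 (ρ b) (ρ (k * c * k⁻¹)) *
        sig3 (ρ b) (ρ (k * c * k⁻¹)) = sig3 (ρ b) (ρ (k * c * k⁻¹)) + 1 := by
    intro k hk
    rcases hρ.sig3_cases hb.1 (hc.conj_zpowers hk).1 with h | h | h | h | h
    · exact absurd h (hcon k hk).1
    · exact Or.inl (h ▸ hρ.sig3_self_inv hb.1)
    · exact absurd h (hcon k hk).2
    · exact Or.inr (Or.inl h)
    · exact Or.inr (Or.inr h)
  obtain ⟨h1, h2⟩ := hρ.sums ha hb hc
  exact k1_aux h1 h2 (by simpa only [one_mul, inv_one, mul_one] using key 1 (one_mem _))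
    (key a (mem_zpowers a)) (key a⁻¹ (inv_mem (mem_zpowers a)))

theorem NormZero.k1_rat (hrat : ∀ x y : G, orderOf x = 3 → orderOf y = 3 →
      sig3 (ρ x) (ρ y) * sig3 (ρ x) (ρ y) ≠ sig3 (ρ x) (ρ y) + 1)
    {a b c : G} (ha : orderOf a = 3) (hb : T3 ρ a b) (hc : T3 ρ a c) :
    ∃ k ∈ zpowers a, k * c * k⁻¹ = b := by
  by_contra hcon
  push Not at hcon
  have key : ∀ k ∈ zpowers a, sig3 (ρ b) (ρ (k * c * k⁻¹)) = (2 : ℤ) • 1 ∨
      sig3 (ρ b) (ρ (k * c * k⁻¹)) = 1 ∨ sig3 (ρ b) (ρ (k * c * k⁻¹)) = 0 := by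
    intro k hk
    rcases hρ.sig3_cases hb.1 (hc.conj_zpowers hk).1 with h | h | h | h | h
    · exact absurd h (hcon k hk)
    · exact Or.inl (h ▸ hρ.sig3_self_inv hb.1)
    · exact Or.inr (Or.inr h)
    · exact Or.inr (Or.inl h)
    · exact absurd h (hrat _ _ hb.1 (hc.conj_zpowers hk).1)
  obtain ⟨h1, h2⟩ := hρ.sums ha hb hc
  exact k1_rat_aux h1 h2 (by simpa only [one_mul, inv_one, mul_one] using key 1 (one_mem _))
    (key a (mem_zpowers a)) (key a⁻¹ (inv_mem (mem_zpowers a)))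

omit [Finite G] [Algebra ℚ A] [Nontrivial A] in
theorem NormZero.map_sub_elt {b c : G} (hb : orderOf b = 3) (hc : orderOf c = 3)
    (h : sig3 (ρ b) (ρ c) = 0) : ρ (b * c⁻¹ * b) = ρ b - ρ c := by
  rw [map_mul, map_mul, hρ.inv_of_three hc]
  rw [sig3] at h
  linear_combination (norm := noncomm_ring) -ρ b * h + hρ.of_three hb * ρ c

theorem NormZero.k2_aux (hG : FpfGroup G) {a b c d : G} (ha : orderOf a = 3) (hb : T3 ρ a b)
    (hc : T3 ρ a c) (hd : T3 ρ a d) (hbc : sig3 (ρ b) (ρ c) = 0) (hbd : sig3 (ρ b) (ρ d) = 0) :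
    ∃ k ∈ zpowers a, k * d * k⁻¹ = c := by
  obtain ⟨k, hk, h⟩ := hρ.k1 ha hc hd
  refine ⟨k, hk, h.resolve_right fun h => ?_⟩
  have hα := hρ.of_three ha
  have hβ := hρ.of_three hb.1
  have hγ := hρ.of_three hc.1
  have hδ := hρ.of_three hd.1
  obtain ⟨h1, h2⟩ := k2_ring hα hβ hγ hδ hb.2 hc.2 hd.2 hbc hbd
  have h3 := (hd.conj_zpowers hk).2
  rcases mem_zpowers_three ha hk with rfl | rfl | rfl
  · rw [one_mul, inv_one, mul_one] at h
    have e : ρ (b * c⁻¹ * b * (b * d⁻¹ * b)) = (ρ b - ρ c) * (ρ b - ρ d) := by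
      rw [map_mul, hρ.map_sub_elt hb.1 hc.1 hbc, hρ.map_sub_elt hb.1 hd.1 hbd]
    have hab := hb.2
    have hac := hc.2
    have had := hd.2
    simp only [sig3] at hab hac had hbc hbd h
    have t1 : (ρ b - ρ c) * (ρ b - ρ c) = -1 := by
      linear_combination (norm := noncomm_ring) hβ + hγ - hbc
    have t2 : (ρ b - ρ d) * (ρ b - ρ d) = -1 := by
      linear_combination (norm := noncomm_ring) hβ + hδ - hbd
    have t3 : (ρ b - ρ d) * (ρ b - ρ c) = -1 - (ρ b - ρ c) * (ρ b - ρ d) := by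
      linear_combination (norm := noncomm_ring) (2 : ℤ) • hβ - hbc - hbd + h
    have t4 : (ρ b - ρ c) * ρ a = -(ρ b - ρ c) - ρ a * (ρ b - ρ c) := by
      linear_combination (norm := noncomm_ring) hab - hac
    have t5 : (ρ b - ρ d) * ρ a = -(ρ b - ρ d) - ρ a * (ρ b - ρ d) := by
      linear_combination (norm := noncomm_ring) hab - had
    generalize ρ b - ρ c = s at *
    generalize ρ b - ρ d = t at *
    have t6 : s * t * (s * t) = -1 - s * t := by
      linear_combination (norm := noncomm_ring) s * t3 * t - t1 * (t * t) + t2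
    have h4 := hG.rank_one 3 Nat.prime_three a (b * c⁻¹ * b * (b * d⁻¹ * b)) ha
      (hρ.injective (by
        rw [map_pow, e, map_one]
        linear_combination (norm := noncomm_ring) (s * t - 1) * t6))
      (hρ.injective (by
        rw [map_mul, map_mul ρ a, e]
        linear_combination (norm := noncomm_ring) s * t5 - t4 * t))
    rcases mem_zpowers_three ha h4 with h5 | h5 | h5 <;> rw [h5] at e
    · have := h2 144 0 (by rw [← e, map_one]; module)
      omega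
    · have := h2 (-72) 72 (by rw [← e]; module)
      omega
    · have := h2 (-72) (-72) (by rw [← e, hρ.inv_of_three ha]; module)
      omega
  · exact h1 _ (Or.inl (by rw [map_mul, map_mul, hρ.inv_of_three ha])) h3 h
  · exact h1 _ (Or.inr (by rw [inv_inv, map_mul, map_mul, hρ.inv_of_three ha])) h3 h

/-- at most two classes -/
theorem NormZero.k2 (hG : FpfGroup G) {a b c d : G} (ha : orderOf a = 3) (hb : T3 ρ a b)
    (hc : T3 ρ a c) (hd : T3 ρ a d) (hbc : sig3 (ρ b) (ρ c) = 0) :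
    ∃ k ∈ zpowers a, k * d * k⁻¹ = b ∨ k * d * k⁻¹ = c := by
  obtain ⟨k, hk, h | h⟩ := hρ.k1 ha hb hd
  · exact ⟨k, hk, Or.inl h⟩
  · obtain ⟨l, hl, h'⟩ := hρ.k2_aux hG ha hb hc (hd.conj_zpowers hk) hbc h
    exact ⟨l * k, mul_mem hl hk, Or.inr (by rw [← h']; group)⟩

end Cfsg.Agent.Local
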