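import Mathlib

/-! Rigidity of commuting graphs: automorphism groups of explicit graphs (kernel-checkable bound)
and recognition of a group from the commuting graph of its involutions. -/

set_option autoImplicit false

namespace Cfsg.Agent.Local

/-- automorphisms of a graph on `Fin n` given by a Boolean function on indices -/
def graphAut (n : ℕ) (adj : ℕ → ℕ → Bool) : Subgroup (Equiv.Perm (Fin n)) where
  carrier := {σ | ∀ x y : Fin n, adj (σ x) (σ y) = adj x y}
  mul_mem' := by
    intro a b ha hb x y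
    simp only [Equiv.Perm.mul_apply]
    rw [ha, hb]
  one_mem' := fun _ _ => rfl
  inv_mem' := by
    intro a ha x y
    have := ha (a⁻¹ x) (a⁻¹ y)
    simpa using this.symm

/-- number of common neighbours -/
def graphLam (n : ℕ) (adj : ℕ → ℕ → Bool) (x y : ℕ) : ℕ :=
  (List.range n).countP fun z => adj x z && adj z y

def graphCell (n : ℕ) (adj : ℕ → ℕ → Bool) (F : List ℕ) (v w : ℕ) : Bool :=
  Nat.beq w v || (F.all (fun x => !(Nat.beq x w) && (adj x w == adj x v)) &&
    F.all fun x => Nat.beq (graphLam n adj x w) (graphLam n adj x v))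

def graphBound (n : ℕ) (adj : ℕ → ℕ → Bool) : List ℕ → List ℕ → ℕ
  | _, [] => 1
  | F, v :: r => (List.range n).countP (graphCell n adj F v) * graphBound n adj (v :: F) r

theorem countP_range_eq_card (n : ℕ) (p : ℕ → Bool) :
    (List.range n).countP p = (Finset.univ.filter fun z : Fin n => p z = true).card := by
  rw [List.countP_eq_length_filter, ← List.toFinset_card_of_nodup (List.nodup_range.filter _)]
  symm
  refine Finset.card_bij (fun z _ => (z : ℕ)) ?_ ?_ ?_
  · intro z hz
    simp only [Finset.mem_filter, Finset.mem_univ, true_and] at hz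
    simp [hz]
  · intro a _ b _ h
    exact Fin.ext h
  · intro b hb
    simp only [List.toFinset_filter, List.toFinset_range, Finset.mem_filter, Finset.mem_range] at hb
    exact ⟨⟨b, hb.1⟩, by simp [hb.2], rfl⟩

theorem graphLam_aut {n : ℕ} {adj : ℕ → ℕ → Bool} {σ : Equiv.Perm (Fin n)}
    (hσ : σ ∈ graphAut n adj) (x y : Fin n) :
    graphLam n adj (σ x) (σ y) = graphLam n adj x y := by
  unfold graphLam
  rw [countP_range_eq_card, countP_range_eq_card]
  symm
  refine Finset.card_equiv σ ?_
  intro z
  simp only [Finset.mem_filter, Finset.mem_univ, true_and]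
  rw [hσ, hσ]

theorem card_le_graphBound {n : ℕ} {adj : ℕ → ℕ → Bool} (r : List ℕ) :
    ∀ (F : List ℕ) (K : Subgroup (Equiv.Perm (Fin n))), K ≤ graphAut n adj →
      (∀ σ ∈ K, ∀ x : Fin n, (x : ℕ) ∈ F → σ x = x) → (∀ x ∈ F, x < n) → (∀ x ∈ r, x < n) →
      (∀ x < n, x ∈ F ∨ x ∈ r) → Nat.card K ≤ graphBound n adj F r := by
  induction r with
  | nil =>
    intro F K _ hF _ _ hall
    have : K = ⊥ := by
      rw [eq_bot_iff]
      intro σ hσ
      rw [Subgroup.mem_bot]
      ext x
      rw [hF σ hσ x (by simpa using hall x x.2)]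
      rfl
    simp [this, graphBound]
  | cons v r ih =>
    intro F K hK hF hFn hrn hall
    have hv : v < n := hrn v (by simp)
    set v' : Fin n := ⟨v, hv⟩
    have h1 := ih (v :: F) (K ⊓ MulAction.stabilizer _ v') (inf_le_left.trans hK)
      (by
        intro σ hσ x hx
        rcases List.mem_cons.1 hx with h | h
        · have : x = v' := Fin.ext h
          rw [this]
          exact hσ.2
        · exact hF σ hσ.1 x h)
      (by
        intro x hx
        rcases List.mem_cons.1 hx with h | h
        · exact h ▸ hv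
        · exact hFn x h)
      (fun x hx => hrn x (List.mem_cons_of_mem _ hx))
      (by
        intro x hx
        rcases hall x hx with h | h
        · exact Or.inl (List.mem_cons_of_mem _ h)
        · rcases List.mem_cons.1 h with h | h
          · exact Or.inl (by simp [h])
          · exact Or.inr h)
    have h2 : (MulAction.orbit K v').ncard ≤ (List.range n).countP (graphCell n adj F v) := by
      rw [countP_range_eq_card, ← Set.ncard_coe_finset]
      refine Set.ncard_le_ncard ?_ (Set.toFinite _)
      rintro _ ⟨σ, rfl⟩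
      simp only [Finset.coe_filter, Finset.mem_univ, true_and, Set.mem_ofPred_eq]
      change graphCell n adj F v ((σ : Equiv.Perm (Fin n)) v') = true
      unfold graphCell
      by_cases h : ((σ : Equiv.Perm (Fin n)) v' : ℕ) = v
      · simp [h]
      · simp only [Bool.or_eq_true, Nat.beq_eq, Bool.and_eq_true, List.all_eq_true,
          Bool.not_eq_eq_eq_not, Bool.not_true, beq_iff_eq]
        refine Or.inr ⟨fun x hx => ⟨?_, ?_⟩, fun x hx => ?_⟩
        · have hx' := hF σ σ.2 ⟨x, hFn x hx⟩ hx
          rw [Bool.eq_false_iff]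
          intro h'
          rw [Nat.beq_eq] at h'
          have h3 : (σ : Equiv.Perm (Fin n)) ⟨x, hFn x hx⟩ = (σ : Equiv.Perm (Fin n)) v' := by
            rw [hx']; exact Fin.ext h'
          have h4 := (σ : Equiv.Perm (Fin n)).injective h3
          rw [← h4, hx'] at h
          exact h (congrArg Fin.val h4)
        · have hx' := hF σ σ.2 ⟨x, hFn x hx⟩ hx
          have := hK σ.2 ⟨x, hFn x hx⟩ v'
          rwa [hx'] at this
        · have hx' := hF σ σ.2 ⟨x, hFn x hx⟩ hx
          have := graphLam_aut (hK σ.2) ⟨x, hFn x hx⟩ v'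
          rwa [hx'] at this
    have h3 : Nat.card K = (MulAction.orbit K v').ncard *
        Nat.card (K ⊓ MulAction.stabilizer (Equiv.Perm (Fin n)) v' : Subgroup _) := by
      rw [← MulAction.index_stabilizer, ← (MulAction.stabilizer K v').card_mul_index, mul_comm]
      congr 1
      rw [← Subgroup.card_map_of_injective K.subtype_injective]
      congr 2
      ext σ
      simp only [Subgroup.mem_map, MulAction.mem_stabilizer_iff, Subgroup.mem_inf]
      constructor
      · rintro ⟨τ, h, rfl⟩
        exact ⟨τ.2, h⟩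
      · rintro ⟨h, h'⟩
        exact ⟨⟨σ, h⟩, h', rfl⟩
    rw [h3, graphBound]
    exact Nat.mul_le_mul h2 h1

/-- a homomorphism to permutations from an action on an injectively labelled invariant family -/
theorem exists_hom_perm_of_conj {H V : Type*} [Group H] [Finite V] (s : V → H)
    (hs : Function.Injective s) (hc : ∀ h v, ∃ w, s w = h * s v * h⁻¹) :
    ∃ φ : H →* Equiv.Perm V, ∀ h v, s (φ h v) = h * s v * h⁻¹ := by
  choose c hc using hc
  have hinj : ∀ h, Function.Injective (c h) := by
    intro h v w hvw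
    have := congrArg s hvw
    rw [hc, hc] at this
    exact hs (by simpa using this)
  refine ⟨MonoidHom.mk' (fun h => Equiv.ofBijective (c h) (Finite.injective_iff_bijective.1 (hinj h)))
    ?_, fun h v => hc h v⟩
  intro a b
  ext v
  apply hs
  simp only [Equiv.ofBijective_apply, Equiv.Perm.mul_apply, hc]
  group

theorem card_eq_card_ne_one_add_one (X : Type*) [Group X] [Finite X] :
    Nat.card X = Nat.card {x : X // x ≠ 1} + 1 := by
  classical
  rw [← Finite.card_option]
  exact (Nat.card_congr (Equiv.optionSubtypeNe (1 : X))).symm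

/-- Recognition from the commuting graph.  `t` lists the involutions of `G`. -/
theorem equiv_of_commGraph {G H : Type*} [Group G] [Group H] [Finite G] [Finite H]
    (f : {h : H // h ≠ 1} ≃ {g : G // g ≠ 1})
    (hf : ∀ x y : {h : H // h ≠ 1}, (x : H) * y = y * x ↔ ((f x) : G) * (f y) = (f y) * (f x))
    {n : ℕ} (t : Fin n → G) (tinj : Function.Injective t)
    (hsurj : ∀ g : G, g ≠ 1 → g * g = 1 → ∃ v, t v = g)
    (hne : ∀ v, t v ≠ 1) (hsq : ∀ v, t v * t v = 1)
    (hcent : ∀ y, (∀ w, t w * y = y * t w) → y = 1)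
    (adj : ℕ → ℕ → Bool) (hadj : ∀ v w : Fin n, adj v w = true ↔ t v * t w = t w * t v)
    (v₀ : Fin n) (hconj : ∀ v, IsConj (t v₀) (t v))
    (r₀ : List ℕ) (hr₀ : ∀ x ∈ r₀, x < n) (hr₀' : ∀ x < n, adj v₀ x = true ∨ x ∈ r₀)
    (hb₀ : graphBound n adj ((List.range n).filter (adj v₀)) r₀ ≤ 2)
    (r : List ℕ) (hr : ∀ x ∈ r, x < n) (hr' : ∀ x < n, x ∈ r)
    (hb : graphBound n adj [] r ≤ 2 * Nat.card G)
    (hG : ∀ K : Subgroup G, (∀ g, g * g ∈ K) → K = ⊤) : Nonempty (H ≃* G) := by
  classical
  -- action of `G`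
  obtain ⟨ψ, hψ⟩ := exists_hom_perm_of_conj t tinj (by
    intro g v
    refine hsurj _ ?_ ?_
    · intro h
      exact hne v (by simpa using h)
    · calc g * t v * g⁻¹ * (g * t v * g⁻¹) = g * (t v * t v) * g⁻¹ := by group
        _ = 1 := by rw [hsq]; simp)
  have hψinj : Function.Injective ψ := by
    rw [injective_iff_map_eq_one]
    intro y hy
    refine hcent y fun w => ?_
    have := hψ y w
    rw [hy, Equiv.Perm.one_apply] at this
    calc t w * y = y * t w * y⁻¹ * y := by rw [← this]
      _ = y * t w := by group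
  have hψA : ∀ g, ψ g ∈ graphAut n adj := by
    intro g x y
    rw [Bool.eq_iff_iff, hadj, hadj, hψ, hψ]
    constructor
    · intro h
      have : g * (t x * t y) * g⁻¹ = g * (t y * t x) * g⁻¹ := by
        calc g * (t x * t y) * g⁻¹ = g * t x * g⁻¹ * (g * t y * g⁻¹) := by group
          _ = g * (t y * t x) * g⁻¹ := by rw [h]; group
      simpa using this
    · intro h
      calc g * t x * g⁻¹ * (g * t y * g⁻¹) = g * (t x * t y) * g⁻¹ := by group
        _ = g * t y * g⁻¹ * (g * t x * g⁻¹) := by rw [h]; group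
  -- the base involution has no twin
  have htw₀ : ∀ y : G, y ≠ 1 → (∀ z, z * t v₀ = t v₀ * z → z * y = y * z) → y = t v₀ := by
    intro y hy hz
    let K : Subgroup (Equiv.Perm (Fin n)) :=
      { carrier := {σ | σ ∈ graphAut n adj ∧ ∀ x : Fin n, adj v₀ x = true → σ x = x}
        mul_mem' := by
          rintro a b ⟨ha, ha'⟩ ⟨hb, hb'⟩
          exact ⟨mul_mem ha hb, fun x hx => by rw [Equiv.Perm.mul_apply, hb' x hx, ha' x hx]⟩
        one_mem' := ⟨one_mem _, fun _ _ => rfl⟩
        inv_mem' := by
          rintro a ⟨ha, ha'⟩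
          exact ⟨inv_mem ha, fun x hx => by rw [Equiv.Perm.inv_eq_iff_eq, ha' x hx]⟩ }
    have hK : Nat.card K ≤ 2 := by
      refine le_trans (card_le_graphBound r₀ _ K (fun σ hσ => hσ.1) ?_ ?_ hr₀ ?_) hb₀
      · intro σ hσ x hx
        exact hσ.2 x (List.mem_filter.1 hx).2
      · intro x hx
        exact List.mem_range.1 (List.mem_filter.1 hx).1
      · intro x hx
        rcases hr₀' x hx with h | h
        · exact Or.inl (List.mem_filter.2 ⟨List.mem_range.2 hx, h⟩)
        · exact Or.inr h
    have hmem : ∀ u : G, (∀ z, z * t v₀ = t v₀ * z → z * u = u * z) → ψ u ∈ K := by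
      intro u hu
      refine ⟨hψA u, fun x hx => tinj ?_⟩
      rw [hψ, ← hu _ ((hadj _ _).1 hx).symm]
      group
    by_contra hyt
    have h3 : ({(⟨1, one_mem _⟩ : K), ⟨ψ y, hmem y hz⟩, ⟨ψ (t v₀), hmem _ fun _ h => h⟩} :
        Set K).ncard = 3 := by
      rw [Set.ncard_eq_three]
      refine ⟨_, _, _, ?_, ?_, ?_, rfl⟩
      · intro h
        exact hy (hψinj (by rw [map_one]; exact (congrArg Subtype.val h).symm))
      · intro h
        exact hne v₀ (hψinj (by rw [map_one]; exact (congrArg Subtype.val h).symm))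
      · intro h
        exact hyt (hψinj (congrArg Subtype.val h))
    have := Set.ncard_le_card ({(⟨1, one_mem _⟩ : K), ⟨ψ y, hmem y hz⟩,
      ⟨ψ (t v₀), hmem _ fun _ h => h⟩} : Set K)
    omega
  have htw : ∀ v, ∀ y : G, y ≠ 1 → (∀ z, z * t v = t v * z → z * y = y * z) → y = t v := by
    intro v y hy hz
    obtain ⟨c, hc⟩ := isConj_iff.1 (hconj v)
    have := htw₀ (c⁻¹ * y * c) (fun h => hy (by
      calc y = c * (c⁻¹ * y * c) * c⁻¹ := by group
        _ = 1 := by rw [h]; simp)) (by
      intro z hz'
      have h1 := hz (c * z * c⁻¹) (by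
        rw [← hc]
        calc c * z * c⁻¹ * (c * t v₀ * c⁻¹) = c * (z * t v₀) * c⁻¹ := by group
          _ = c * t v₀ * c⁻¹ * (c * z * c⁻¹) := by rw [hz']; group)
      calc z * (c⁻¹ * y * c) = c⁻¹ * (c * z * c⁻¹ * y) * c := by group
        _ = c⁻¹ * y * c * z := by rw [h1]; group)
    rw [← hc, ← this]
    group
  -- action of `H`
  let s : Fin n → H := fun v => f.symm ⟨t v, hne v⟩
  have hs1 : ∀ v, s v ≠ 1 := fun v => (f.symm ⟨t v, hne v⟩).2
  have hfs : ∀ v, (f ⟨s v, hs1 v⟩ : G) = t v := fun v => by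
    change (f (f.symm ⟨t v, hne v⟩) : G) = t v
    rw [Equiv.apply_symm_apply]
  have sinj : Function.Injective s := by
    intro v w h
    apply tinj
    rw [← hfs, ← hfs]
    congr 3
  have hstw : ∀ v, ∀ y : H, y ≠ 1 → (∀ z, z * s v = s v * z → z * y = y * z) → y = s v := by
    intro v y hy hz
    have := htw v (f ⟨y, hy⟩) (f ⟨y, hy⟩).2 (by
      intro z hz'
      by_cases h1 : z = 1
      · simp [h1]
      · obtain ⟨u, hu⟩ := f.surjective ⟨z, h1⟩
        have hu' : z = f u := by rw [hu]
        rw [hu', ← hfs] at hz'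
        rw [hu']
        exact (hf u ⟨y, hy⟩).1 (hz u ((hf u ⟨s v, hs1 v⟩).2 hz')))
    rw [← hfs] at this
    exact congrArg Subtype.val (f.injective (Subtype.ext this))
  obtain ⟨φ, hφ⟩ := exists_hom_perm_of_conj s sinj (by
    intro h v
    have h1 : h * s v * h⁻¹ ≠ 1 := fun h' => hs1 v (by simpa using h')
    set g := f ⟨_, h1⟩ with hg
    have h2 : (g : G)⁻¹ = g := by
      have hi : (g : G)⁻¹ ≠ 1 := by simpa using g.2
      obtain ⟨u, hu⟩ := f.surjective ⟨_, hi⟩
      have h3 := hstw v (h⁻¹ * u * h) (fun h' => u.2 (by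
        calc (u : H) = h * (h⁻¹ * u * h) * h⁻¹ := by group
          _ = 1 := by rw [h']; simp)) (by
        intro z hz
        by_cases hz1 : z = 1
        · simp [hz1]
        have hz2 : h * z * h⁻¹ ≠ 1 := fun h' => hz1 (by simpa using h')
        have h4 := (hf ⟨_, hz2⟩ ⟨_, h1⟩).1 (by
          calc h * z * h⁻¹ * (h * s v * h⁻¹) = h * (z * s v) * h⁻¹ := by group
            _ = h * s v * h⁻¹ * (h * z * h⁻¹) := by rw [hz]; group)
        have h5 := (hf ⟨_, hz2⟩ u).2 (by
          rw [hu, ← hg] at *
          exact (Commute.inv_right h4).eq)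
        have h6 : h * z * h⁻¹ * u = u * (h * z * h⁻¹) := h5
        calc z * (h⁻¹ * u * h) = h⁻¹ * (h * z * h⁻¹ * u) * h := by group
          _ = h⁻¹ * u * h * z := by rw [h6]; group)
      have h7 : u = ⟨_, h1⟩ := Subtype.ext (by
        change (u : H) = h * s v * h⁻¹
        rw [← h3]; group)
      rw [h7, ← hg] at hu
      exact (congrArg Subtype.val hu).symm
    obtain ⟨w, hw⟩ := hsurj g g.2 (by
      calc (g : G) * g = g * (g : G)⁻¹ := by rw [h2]
        _ = 1 := by simp)
    refine ⟨w, ?_⟩
    have : f ⟨s w, hs1 w⟩ = g := Subtype.ext (by rw [hfs, hw])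
    exact congrArg Subtype.val (f.injective this))
  have hφinj : Function.Injective φ := by
    rw [injective_iff_map_eq_one]
    intro y hy
    by_contra hy1
    refine (f ⟨y, hy1⟩).2 (hcent _ fun w => ?_)
    rw [← hfs]
    refine (hf ⟨s w, hs1 w⟩ ⟨y, hy1⟩).1 ?_
    have := hφ y w
    rw [hy, Equiv.Perm.one_apply] at this
    calc s w * y = y * s w * y⁻¹ * y := by rw [← this]
      _ = y * s w := by group
  have hφA : ∀ g, φ g ∈ graphAut n adj := by
    intro g x y
    rw [Bool.eq_iff_iff, hadj, hadj, ← hfs, ← hfs, ← hfs, ← hfs, ← hf, ← hf]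
    simp only [hφ]
    constructor
    · intro h
      have : g * (s x * s y) * g⁻¹ = g * (s y * s x) * g⁻¹ := by
        calc g * (s x * s y) * g⁻¹ = g * s x * g⁻¹ * (g * s y * g⁻¹) := by group
          _ = g * (s y * s x) * g⁻¹ := by rw [h]; group
      simpa using this
    · intro h
      calc g * s x * g⁻¹ * (g * s y * g⁻¹) = g * (s x * s y) * g⁻¹ := by group
        _ = g * s y * g⁻¹ * (g * s x * g⁻¹) := by rw [h]; group
  -- orders
  have hHG : Nat.card H = Nat.card G := by
    rw [card_eq_card_ne_one_add_one H, card_eq_card_ne_one_add_one G, Nat.card_congr f]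
  have hA : Nat.card (graphAut n adj) ≤ 2 * Nat.card G :=
    (card_le_graphBound r [] _ le_rfl (by simp) (by simp) hr fun x hx => Or.inr (hr' x hx)).trans hb
  let φ' : H →* graphAut n adj := φ.codRestrict _ hφA
  let ψ' : G →* graphAut n adj := ψ.codRestrict _ hψA
  have hφ' : Function.Injective φ' := fun a b h => hφinj (congrArg Subtype.val h)
  have hψ' : Function.Injective ψ' := fun a b h => hψinj (congrArg Subtype.val h)
  have hcφ : Nat.card φ'.range = Nat.card G := by
    rw [← hHG]; exact (Nat.card_congr (MonoidHom.ofInjective hφ').toEquiv).symm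
  have hcψ : Nat.card ψ'.range = Nat.card G := (Nat.card_congr (MonoidHom.ofInjective hψ').toEquiv).symm
  have hidx : φ'.range.index = 1 ∨ φ'.range.index = 2 := by
    have h1 := φ'.range.card_mul_index
    have h2 : φ'.range.index ≠ 0 := Subgroup.index_ne_zero_of_finite
    have h3 : 0 < Nat.card G := Nat.card_pos
    rw [hcφ] at h1
    have : φ'.range.index ≤ 2 := by
      by_contra h
      have : Nat.card G * 3 ≤ Nat.card G * φ'.range.index := Nat.mul_le_mul_left _ (by omega)
      omega
    omega
  have hle : ψ'.range ≤ φ'.range := by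
    have := hG (φ'.range.comap ψ') (by
      intro g
      rw [Subgroup.mem_comap, map_mul]
      rcases hidx with h | h
      · rw [Subgroup.index_eq_one.1 h]; trivial
      · exact Subgroup.mul_self_mem_of_index_two h _)
    rintro _ ⟨g, rfl⟩
    have h : g ∈ φ'.range.comap ψ' := this ▸ Subgroup.mem_top g
    exact h
  have heq : φ'.range = ψ'.range :=
    (Subgroup.eq_of_le_of_card_ge hle (by rw [hcφ, hcψ])).symm
  exact ⟨(MonoidHom.ofInjective hφ').trans ((MulEquiv.subgroupCongr heq).trans
    (MonoidHom.ofInjective hψ').symm)⟩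

end Cfsg.Agent.Local
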